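import Cfsg.Prelude.Def_Classical

/-!
# Root elements of the hyperbolic orthogonal group

Root elements are indexed by pairs of standard singular basis vectors with distinct indices.
-/

set_option autoImplicit false
set_option linter.unusedSectionVars false

namespace Cfsg.Agent.DType

open Matrix
open scoped commutatorElement

universe u

/-- The standard basis indices. -/
abbrev I (l : ℕ) : Type := Fin l ⊕ Fin l

variable {l : ℕ}

/-- The opposite index. -/
def bar : I l → I l := Sum.swap

/-- The hyperbolic plane of an index. -/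
def ix : I l → Fin l := Sum.elim id id

@[simp] theorem bar_bar (a : I l) : bar (bar a) = a := Sum.swap_swap a

@[simp] theorem ix_bar (a : I l) : ix (bar a) = ix a := by rcases a with a | a <;> rfl

theorem bar_ne (a : I l) : bar a ≠ a := by rcases a with a | a <;> simp [bar]

theorem ne_bar (a : I l) : a ≠ bar a := (bar_ne a).symm

theorem ne_of_ix {a b : I l} (h : ix a ≠ ix b) : a ≠ b := fun e => h (e ▸ rfl)

theorem eq_or_eq_bar {a b : I l} (h : ix a = ix b) : a = b ∨ a = bar b := by
  rcases a with a | a <;> rcases b with b | b <;> simp_all [ix, bar]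

theorem bar_inj {a b : I l} (h : bar a = bar b) : a = b := by simpa using congrArg bar h

variable {F : Type u} [Field F]

/-- The form. -/
abbrev Q (l : ℕ) (F : Type u) [Field F] : (I l → F) → F := Cfsg.quadFormPlus l F

/-- The nilpotent part of a root element. -/
def nil (F : Type u) [Field F] (a b : I l) : Matrix (I l) (I l) F :=
  Matrix.single a (bar b) 1 - Matrix.single b (bar a) 1

theorem nil_mul_nil {a b c d : I l} (h1 : bar b ≠ c) (h2 : bar b ≠ d) (h3 : bar a ≠ c)
    (h4 : bar a ≠ d) : nil F a b * nil F c d = 0 := by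
  simp [nil, mul_sub, sub_mul, Matrix.single_mul_single_of_ne, h1, h2, h3, h4]

/-- The matrix of a root element. -/
def rmat (a b : I l) (t : F) : Matrix (I l) (I l) F := 1 + t • nil F a b

theorem nil_sq {a b : I l} (h : ix a ≠ ix b) : nil F a b * nil F a b = 0 :=
  nil_mul_nil (fun e => h (by simpa using (congrArg ix e).symm)) (bar_ne b) (bar_ne a)
    fun e => h (by simpa using congrArg ix e)

theorem rmat_mul_same {a b : I l} (h : ix a ≠ ix b) (t u : F) :
    rmat a b t * rmat a b u = rmat a b (t + u) := by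
  simp [rmat, mul_add, add_mul, smul_smul, nil_sq h, add_smul, add_comm, add_left_comm, add_assoc]

theorem rmat_mulVec (a b : I l) (t : F) (v : I l → F) :
    rmat a b t *ᵥ v = v + (Pi.single a (t * v (bar b)) - Pi.single b (t * v (bar a))) := by
  rw [rmat, Matrix.add_mulVec, Matrix.one_mulVec, Matrix.smul_mulVec, nil, Matrix.sub_mulVec,
    Matrix.single_mulVec, Matrix.single_mulVec, smul_sub]
  congr 2 <;>
  · funext x
    simp [Pi.single_apply, Function.update_apply]

theorem Q_add_single (v : I l → F) (a : I l) (α : F) :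
    Q l F (v + Pi.single a α) = Q l F v + α * v (bar a) := by
  simp only [Q, Cfsg.quadFormPlus]
  rcases a with i | i <;>
  · simp only [Pi.add_apply, Pi.single_apply, Sum.inl.injEq, Sum.inr.injEq, reduceCtorEq, if_false,
      add_zero, add_mul, mul_add, ite_mul, mul_ite, zero_mul, mul_zero, Finset.sum_add_distrib,
      Finset.sum_ite_eq', Finset.mem_univ, if_true]
    simp [bar, mul_comm]

theorem rmat_isometry {a b : I l} (h : ix a ≠ ix b) (t : F) (v : I l → F) :
    Q l F (rmat a b t *ᵥ v) = Q l F v := by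
  have hb : bar b ≠ a := fun e => h (by simpa using (congrArg ix e).symm)
  rw [rmat_mulVec, sub_eq_add_neg, ← Pi.single_neg, ← add_assoc, Q_add_single, Q_add_single,
    Pi.add_apply, Pi.single_eq_of_ne hb, add_zero]
  ring

/-- A root element in the isometry group. -/
def X (a b : I l) (t : F) : isometryGroup F (Q l F) :=
  if h : ix a ≠ ix b then
    ⟨⟨rmat a b t, rmat a b (-t), by rw [rmat_mul_same h, add_neg_cancel]; simp [rmat],
      by rw [rmat_mul_same h, neg_add_cancel]; simp [rmat]⟩,
      fun u _ => rmat_isometry h t u⟩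
  else 1

/-- The matrix of an isometry. -/
abbrev mat (g : isometryGroup F (Q l F)) : Matrix (I l) (I l) F :=
  ((g : Matrix.GeneralLinearGroup (I l) F) : Matrix (I l) (I l) F)

theorem mat_X {a b : I l} (h : ix a ≠ ix b) (t : F) : mat (X a b t) = rmat a b t := by
  rw [X, dif_pos h]

theorem mat_mul (g k : isometryGroup F (Q l F)) : mat (g * k) = mat g * mat k := rfl

theorem mat_one : mat (1 : isometryGroup F (Q l F)) = 1 := rfl

theorem mat_inj {g k : isometryGroup F (Q l F)} (h : mat g = mat k) : g = k :=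
  Subtype.ext (Units.ext h)

theorem ext_mulVec {g k : isometryGroup F (Q l F)} (h : ∀ v, mat g *ᵥ v = mat k *ᵥ v) : g = k :=
  mat_inj (Matrix.ext_iff_mulVec.2 h)

theorem mat_mulVec_inv (g : isometryGroup F (Q l F)) (v : I l → F) :
    mat g *ᵥ (mat g⁻¹ *ᵥ v) = v := by
  rw [Matrix.mulVec_mulVec, ← mat_mul, mul_inv_cancel, mat_one, Matrix.one_mulVec]

theorem isometry (g : isometryGroup F (Q l F)) (v : I l → F) : Q l F (mat g *ᵥ v) = Q l F v :=
  g.2 v v

theorem X_add {a b : I l} (h : ix a ≠ ix b) (t u : F) : X a b t * X a b u = X a b (t + u) :=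
  mat_inj (by rw [mat_mul, mat_X h, mat_X h, mat_X h, rmat_mul_same h])

theorem X_zero {a b : I l} (h : ix a ≠ ix b) : X a b (0 : F) = 1 :=
  mul_eq_left.1 (by rw [X_add h, add_zero] : X a b (0 : F) * X a b 0 = X a b 0)

theorem X_inv {a b : I l} (h : ix a ≠ ix b) (t : F) : (X a b t)⁻¹ = X a b (-t) :=
  inv_eq_of_mul_eq_one_right (by rw [X_add h, add_neg_cancel, X_zero h])

theorem X_swap {a b : I l} (h : ix a ≠ ix b) (t : F) : X b a t = X a b (-t) :=
  mat_inj (by
    rw [mat_X h.symm, mat_X h, rmat, rmat, neg_smul, ← smul_neg]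
    simp [nil])

theorem X_commute {a b c d : I l} (hab : ix a ≠ ix b) (hcd : ix c ≠ ix d) (h1 : c ≠ bar a)
    (h2 : c ≠ bar b) (h3 : d ≠ bar a) (h4 : d ≠ bar b) (t u : F) :
    Commute (X a b t) (X c d u) := by
  have e1 : nil F a b * nil F c d = 0 := nil_mul_nil h2.symm h4.symm h1.symm h3.symm
  have e2 : nil F c d * nil F a b = 0 := nil_mul_nil (fun e => h3 (by rw [← e, bar_bar]))
    (fun e => h4 (by rw [← e, bar_bar])) (fun e => h1 (by rw [← e, bar_bar]))
    fun e => h2 (by rw [← e, bar_bar])
  refine mat_inj ?_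
  rw [mat_mul, mat_mul, mat_X hab, mat_X hcd]
  simp only [rmat, mul_add, add_mul, one_mul, mul_one, smul_mul_assoc, mul_smul_comm, e1, e2,
    smul_zero, add_zero]
  abel

theorem X_commute_bar {a b : I l} (h : ix a ≠ ix b) (t u : F) :
    Commute (X a b t) (X (bar a) b u) := by
  have h' : ix (bar a) ≠ ix b := by simpa using h
  have hab := ne_of_ix h
  have hab' : bar a ≠ b := ne_of_ix h'
  have hbb : bar b ≠ bar a := fun e => hab (bar_inj e).symm
  have hba : bar b ≠ a := fun e => hab' (by rw [← e, bar_bar])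
  have e1 : nil F a b * nil F (bar a) b = -Matrix.single b (bar b) 1 := by
    simp [nil, mul_sub, sub_mul, Matrix.single_mul_single_of_ne, hbb, bar_ne b, hab']
  have e2 : nil F (bar a) b * nil F a b = -Matrix.single b (bar b) 1 := by
    simp [nil, mul_sub, sub_mul, Matrix.single_mul_single_of_ne, hba, bar_ne b, hab]
  refine mat_inj ?_
  rw [mat_mul, mat_mul, mat_X h, mat_X h']
  simp only [rmat, mul_add, add_mul, one_mul, mul_one, smul_mul_assoc, mul_smul_comm, e1, e2,
    smul_add, ← mul_smul]
  rw [mul_comm u t]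
  abel

theorem X_comm {a b c : I l} (hab : ix a ≠ ix b) (hbc : ix b ≠ ix c) (hac : ix a ≠ ix c) (t u : F) :
    X a b t * X (bar b) c u = X a c (t * u) * X (bar b) c u * X a b t := by
  have hbc' : ix (bar b) ≠ ix c := by simpa using hbc
  have ne : ∀ {x y : I l}, ix x ≠ ix y → x ≠ y := fun h => ne_of_ix h
  have e1 : nil F a b * nil F (bar b) c = Matrix.single a (bar c) 1 := by
    simp [nil, mul_sub, sub_mul, Matrix.single_mul_single_of_ne, ne hbc',
      ne (show ix (bar a) ≠ ix (bar b) by simpa using hab),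
      ne (show ix (bar a) ≠ ix c by simpa using hac)]
  have e2 : nil F (bar b) c * nil F a b = Matrix.single c (bar a) 1 := by
    simp [nil, mul_sub, sub_mul, Matrix.single_mul_single_of_ne,
      ne (show ix (bar c) ≠ ix a by simpa using hac.symm),
      ne (show ix (bar c) ≠ ix b by simpa using hbc.symm), ne hab.symm]
  have e3 : nil F a c * nil F (bar b) c = 0 := nil_mul_nil
    (ne (by simpa using hbc.symm)) (bar_ne c) (ne (by simpa using hab)) (ne (by simpa using hac))
  have e4 : nil F a c * nil F a b = 0 := nil_mul_nil (ne (by simpa using hac.symm))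
    (ne (by simpa using hbc.symm)) (bar_ne a) (ne (by simpa using hab))
  refine mat_inj ?_
  simp only [mat_mul, mat_X hab, mat_X hbc', mat_X hac, rmat]
  simp only [mul_add, add_mul, one_mul, mul_one, smul_mul_assoc, mul_smul_comm, e1, e2,
    e3, e4, smul_zero, add_zero]
  have : nil F a c = Matrix.single a (bar c) 1 - Matrix.single c (bar a) 1 := rfl
  rw [this, smul_sub]
  simp only [smul_add, smul_smul, mul_comm u t]
  abel

theorem X_commutator {a b c : I l} (hab : ix a ≠ ix b) (hbc : ix b ≠ ix c) (hac : ix a ≠ ix c)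
    (t u : F) : ⁅X a b t, X (bar b) c u⁆ = X a c (t * u) := by
  rw [commutatorElement_def, X_comm hab hbc hac]; group

/-- `g` sends the basis vector `x` to `w x` times the basis vector `σ x`. -/
def IsMono (g : isometryGroup F (Q l F)) (σ : Equiv.Perm (I l)) (w : I l → F) : Prop :=
  ∀ v x, (mat g *ᵥ v) (σ x) = w x * v x

theorem IsMono.one : IsMono (1 : isometryGroup F (Q l F)) 1 1 := fun v x => by simp [mat_one]

theorem IsMono.mul {g k : isometryGroup F (Q l F)} {σ τ : Equiv.Perm (I l)} {w z : I l → F}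
    (hg : IsMono g σ w) (hk : IsMono k τ z) : IsMono (g * k) (σ * τ) fun x => w (τ x) * z x :=
  fun v x => by rw [mat_mul, ← Matrix.mulVec_mulVec, Equiv.Perm.mul_apply, hg, hk, mul_assoc]

theorem IsMono.ne_zero {g : isometryGroup F (Q l F)} {σ : Equiv.Perm (I l)} {w : I l → F}
    (hg : IsMono g σ w) (x : I l) : w x ≠ 0 := by
  intro e
  have h := congrFun (mat_mulVec_inv g (Pi.single (σ x) 1)) (σ x)
  rw [hg, e, zero_mul, Pi.single_eq_same] at h
  exact one_ne_zero h.symm

theorem IsMono.mulVec_single {g : isometryGroup F (Q l F)} {σ : Equiv.Perm (I l)} {w : I l → F}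
    (hg : IsMono g σ w) (x : I l) (c : F) :
    mat g *ᵥ Pi.single x c = Pi.single (σ x) (w x * c) := by
  funext y
  obtain ⟨z, rfl⟩ := σ.surjective y
  rw [hg]
  rcases eq_or_ne z x with rfl | h
  · simp
  · rw [Pi.single_eq_of_ne h, Pi.single_eq_of_ne (σ.injective.ne h), mul_zero]

theorem Q_single (a : I l) (c : F) : Q l F (Pi.single a c) = 0 := by
  have := Q_add_single 0 a c
  simpa [Q, Cfsg.quadFormPlus] using this

theorem Q_pair (a b : I l) (x y : F) :
    Q l F (Pi.single a x + Pi.single b y) = if b = bar a then x * y else 0 := by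
  rw [Q_add_single, Q_single, zero_add]
  rcases eq_or_ne b (bar a) with rfl | h
  · simp [mul_comm]
  · rw [if_neg h, Pi.single_eq_of_ne (fun e => h (by rw [← e, bar_bar])), mul_zero]

theorem IsMono.perm_bar {g : isometryGroup F (Q l F)} {σ : Equiv.Perm (I l)} {w : I l → F}
    (hg : IsMono g σ w) (x : I l) : σ (bar x) = bar (σ x) ∧ w x * w (bar x) = 1 := by
  have h := isometry g (Pi.single x 1 + Pi.single (bar x) 1)
  rw [Matrix.mulVec_add, hg.mulVec_single, hg.mulVec_single, Q_pair, Q_pair, if_pos rfl, mul_one,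
    mul_one, mul_one] at h
  split_ifs at h with e
  · exact ⟨e, h⟩
  · exact absurd h zero_ne_one

theorem IsMono.conj {g : isometryGroup F (Q l F)} {σ : Equiv.Perm (I l)} {w : I l → F}
    (hg : IsMono g σ w) {a b : I l} (hab : ix a ≠ ix b) (t : F) :
    ix (σ a) ≠ ix (σ b) ∧ g * X a b t * g⁻¹ = X (σ a) (σ b) (w a * w b * t) := by
  have hs : ix (σ a) ≠ ix (σ b) := by
    intro e
    rcases eq_or_eq_bar e with e | e
    · exact ne_of_ix hab (σ.injective e)
    · rw [← (hg.perm_bar b).1] at e
      exact hab (by rw [σ.injective e, ix_bar])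
  refine ⟨hs, ?_⟩
  rw [mul_inv_eq_iff_eq_mul]
  refine ext_mulVec fun v => ?_
  rw [mat_mul, mat_mul, ← Matrix.mulVec_mulVec, ← Matrix.mulVec_mulVec, mat_X hab, mat_X hs,
    rmat_mulVec, rmat_mulVec, Matrix.mulVec_add, Matrix.mulVec_sub, hg.mulVec_single,
    hg.mulVec_single, ← (hg.perm_bar a).1, ← (hg.perm_bar b).1, hg, hg]
  have e1 := (hg.perm_bar a).2
  have e2 := (hg.perm_bar b).2
  congr 3
  · linear_combination (-(t * v (bar b) * w a)) * e2
  · linear_combination (-(t * v (bar a) * w b)) * e1

end Cfsg.Agent.DType
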