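import Cfsg.Agent.DType.Basic
import Cfsg.Agent.Chev.Classical.Gen
import Cfsg.Agent.Classical.OrthFinal

/-!
# Generation and centre of the hyperbolic orthogonal group
-/

set_option autoImplicit false
set_option linter.unusedSectionVars false

namespace Cfsg.Agent.DType

open Matrix QuadraticMap Cfsg.Agent.Classical
open scoped commutatorElement

universe u

variable {F : Type u} [Field F] {l : ℕ}

theorem exists_ix_ne (hl : 3 ≤ l) (i j : Fin l) : ∃ m : I l, ix m ≠ i ∧ ix m ≠ j := by
  classical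
  obtain ⟨m, -, hm⟩ := Finset.exists_mem_notMem_of_card_lt_card (s := ({i, j} : Finset (Fin l)))
    (t := Finset.univ) (lt_of_le_of_lt Finset.card_le_two (by rw [Finset.card_univ, Fintype.card_fin]; omega))
  simp only [Finset.mem_insert, Finset.mem_singleton, not_or] at hm
  exact ⟨.inl m, hm.1, hm.2⟩

theorem X_mem_Omega (hl : 3 ≤ l) (a b : I l) (t : F) : X a b t ∈ Omega F (Q l F) := by
  by_cases h : ix a ≠ ix b
  · obtain ⟨m, h1, h2⟩ := exists_ix_ne hl (ix a) (ix b)
    rw [← mul_one t, ← X_commutator h1.symm h2 h t 1]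
    exact Subgroup.commutator_mem_commutator (Subgroup.mem_top _) (Subgroup.mem_top _)
  · rw [X, dif_neg h]; exact one_mem _

theorem hypExt_single (m : ℕ) (j : I m) (c : F) (e : Fin 0 → F) :
    hypExt m (0 : QuadraticForm F (Fin 0 → F)) (Pi.single j c, e) = 0 := by
  rw [hypExt_apply, QuadraticMap.zero_apply, add_zero]
  exact Q_single j c

theorem polar_hypExt_single (m : ℕ) (j : I m) (c : F) (e : Fin 0 → F)
    (w : HypSpace F m (Fin 0 → F)) :
    polar (hypExt m (0 : QuadraticForm F (Fin 0 → F))) (Pi.single j c, e) w = c * w.1 (bar j) := by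
  have h := Q_add_single w.1 j c
  rw [add_comm w.1] at h
  have hv : ∀ x : HypSpace F m (Fin 0 → F),
      hypExt m (0 : QuadraticForm F (Fin 0 → F)) x = Q m F x.1 := fun x => by
    rw [hypExt_apply, QuadraticMap.zero_apply, add_zero]
    rfl
  rw [polar, hv, hv, hv, Prod.fst_add, h, Q_single]
  ring

theorem polar_hypExt_fst_zero (m : ℕ) (e : Fin 0 → F) (w : HypSpace F m (Fin 0 → F)) :
    polar (hypExt m (0 : QuadraticForm F (Fin 0 → F))) (fun _ => 0, e) w = 0 := by
  rw [show ((fun _ => 0, e) : HypSpace F m (Fin 0 → F)) = 0 from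
    Prod.ext rfl (Subsingleton.elim _ _), polar_zero_left]

/-- The root elements generate `Ω`. -/
theorem closure_X (hl : 3 ≤ l) :
    Subgroup.closure {g : isometryGroup F (Q l F) | ∃ a b t, ix a ≠ ix b ∧ g = X a b t} =
      Omega F (Q l F) := by
  classical
  refine le_antisymm ((Subgroup.closure_le _).2 ?_) ?_
  · rintro _ ⟨a, b, t, -, rfl⟩; exact X_mem_Omega hl a b t
  obtain ⟨m, rfl⟩ : ∃ m, l = m + 3 := ⟨l - 3, by omega⟩
  set C := Subgroup.closure {g : isometryGroup F (Q (m + 3) F) | ∃ a b t, ix a ≠ ix b ∧ g = X a b t}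
  let Q₁ := hypExt (m + 2) (0 : QuadraticForm F (Fin 0 → F))
  obtain ⟨hQ, h2p, hgen⟩ := (goodCore_zero (F := F)).hypExt_data m
  let ε : (I (m + 3) → F) ≃ₗ[F] (F × F) × HypSpace F (m + 2) (Fin 0 → F) :=
    (plusEquiv (m + 3)).trans (hypSplit (m + 2))
  have hε : ∀ v, hypAdd Q₁ (ε v) = plusQF (m + 3) F v := fun v => by
    rw [LinearEquiv.trans_apply, hypSplit_spec, plusEquiv_spec]
  have hf : ∀ v, plusQF (m + 3) F v = Q (m + 3) F v := fun v => plusQF_apply _ v
  let Φ := (isometryGroupEquiv (Q (m + 3) F) (plusQF (m + 3) F) hf).trans (OQCongr ε hε)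
  let H := C.map Φ.toMonoidHom
  let up : Fin (m + 2) ⊕ Fin (m + 2) → I (m + 3) := Sum.map Fin.succ Fin.succ
  have hup : ∀ j, ix (up j) ≠ 0 := fun j => by rcases j with j | j <;> exact Fin.succ_ne_zero j
  have hval : ∀ g x, (Φ g).1 x = ε (mat g *ᵥ ε.symm x) := fun g x => rfl
  have key : ∀ (o : I (m + 3)), ix o = 0 → ∀ (u : (F × F) × HypSpace F (m + 2) (Fin 0 → F)),
      u = ε (Pi.single o 1) → ∀ (w : HypSpace F (m + 2) (Fin 0 → F)) (h1 : hypAdd Q₁ u = 0)
        (h2 : polar (hypAdd Q₁) u ((0, 0), w) = 0), siegel (hypAdd Q₁) h1 h2 ∈ H := by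
    intro o ho u hu
    have hall : ∀ w, polar (hypAdd Q₁) u ((0, 0), w) = 0 := by
      intro w
      rw [hu, polar_hypAdd]
      have : (ε (Pi.single o (1 : F))).2 = 0 := by
        refine Prod.ext (funext fun i => ?_) (Subsingleton.elim _ _)
        rcases o with o | o <;> rcases i with i | i <;>
          simp_all [ε, plusEquiv, hypSplit, ix, Fin.succ_ne_zero]
      simp [this]
    have hgenj : ∀ (j : Fin (m + 2) ⊕ Fin (m + 2)) (c : F) (h1 : hypAdd Q₁ u = 0)
        (h2 : polar (hypAdd Q₁) u ((0, 0), (Pi.single j c, 0)) = 0),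
        siegel (hypAdd Q₁) h1 h2 ∈ H := by
      intro j c h1 h2
      have hne : ix (up j) ≠ ix o := by rw [ho]; exact hup j
      refine ⟨X (up j) o c, Subgroup.subset_closure ⟨_, _, _, hne, rfl⟩, ?_⟩
      refine Subtype.ext (LinearEquiv.ext fun x => ?_)
      obtain ⟨v, rfl⟩ := ε.surjective x
      rw [MulEquiv.coe_toMonoidHom, hval, ε.symm_apply_apply, mat_X hne, rmat_mulVec, siegel_apply,
        map_add, map_sub, hu]
      rcases o with o | o <;> rcases j with j | j <;> simp only [ix, Sum.elim_inl, Sum.elim_inr,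
        id_eq] at ho <;> subst ho <;>
      · simp [ε, Q₁, up, bar, plusEquiv, hypSplit, Prod.ext_iff, funext_iff, hypExt_single,
          polar_hypExt_single, polar_hypExt_fst_zero, polar_hypAdd, Fin.succ_ne_zero,
          Pi.single_apply]
        refine ⟨by ring, fun a => ?_⟩
        split_ifs <;> ring
    intro w h1 h2
    have hw : w = ∑ j : Fin (m + 2) ⊕ Fin (m + 2),
        ((Pi.single j (w.1 j), 0) : HypSpace F (m + 2) (Fin 0 → F)) := by
      refine Prod.ext ?_ (Subsingleton.elim _ _)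
      rw [Prod.fst_sum, Finset.univ_sum_single]
    revert h2
    rw [hw]
    refine Finset.sum_induction _
      (fun w => ∀ h2 : polar (hypAdd Q₁) u ((0, 0), w) = 0, siegel (hypAdd Q₁) h1 h2 ∈ H)
      ?_ ?_ fun j _ => hgenj j _ h1
    · intro a b ha hb h2
      have := mul_mem (ha (hall a)) (hb (hall b))
      rwa [siegel_mul, siegel_congr (hypAdd Q₁) h1 _ h1 h2 rfl
        (show ((((0, 0), a) + ((0, 0), b)) : (F × F) × HypSpace F (m + 2) (Fin 0 → F)) = ((0, 0), a + b)
          from Prod.ext (by simp) rfl)] at this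
    · intro h2
      rw [siegel_congr (hypAdd Q₁) h1 h2 h1 (polar_zero_right _ _) rfl rfl, siegel_zero]
      exact one_mem _
  have hplane : Chev.Classical.HasPlane H :=
    ⟨key (.inl 0) rfl _ (by simp [ε, plusEquiv, hypSplit, Prod.ext_iff, funext_iff, Fin.succ_ne_zero]),
      key (.inr 0) rfl _ (by simp [ε, plusEquiv, hypSplit, Prod.ext_iff, funext_iff, Fin.succ_ne_zero])⟩
  obtain ⟨e, f, e', f', hp⟩ := id h2p
  have hle := Chev.Classical.EQ_le_of_plane hplane hQ.qNondeg hp.1
  intro g hg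
  have hmem : Φ g ∈ EQ (hypAdd Q₁) := by
    rw [← commutator_OQ_eq hQ h2p hgen, ← map_commutator_top_of_equiv Φ]
    exact ⟨g, hg, rfl⟩
  obtain ⟨k, hk, hkg⟩ := hle hmem
  exact Φ.injective hkg ▸ hk

/-- An element commuting with all root elements is a scalar `±1`. -/
theorem scalar_of_commute (hl : 3 ≤ l) (g : isometryGroup F (Q l F))
    (h : ∀ a b, ix a ≠ ix b → Commute g (X a b (1 : F))) :
    ∃ c : F, c * c = 1 ∧ mat g = c • (1 : Matrix (I l) (I l) F) := by
  classical
  have hN : ∀ a b, ix a ≠ ix b → mat g * nil F a b = nil F a b * mat g := by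
    intro a b hab
    have e := congrArg mat (h a b hab).eq
    rw [mat_mul, mat_mul, mat_X hab] at e
    simpa [rmat, mul_add, add_mul] using e
  have hoff : ∀ x a, x ≠ a → mat g x a = 0 := by
    intro x a hxa
    obtain ⟨b, hb1, hb2⟩ := exists_ix_ne hl (ix a) (ix x)
    have e := congrFun (congrFun (hN a b hb1.symm) x) (bar b)
    have h1 : bar a ≠ bar b := fun e => hb1 (by rw [bar_inj e])
    simp only [nil, Matrix.mul_sub, Matrix.sub_mul, Matrix.sub_apply, Matrix.mul_single_apply_same,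
      Matrix.mul_single_apply_of_ne (hbj := h1.symm), Matrix.single_mul_apply_of_ne (h := hxa),
      Matrix.single_mul_apply_of_ne (h := ne_of_ix hb2.symm), mul_one, sub_zero] at e
    exact e
  have hdiag : ∀ a b, ix a ≠ ix b → mat g a a = mat g b b := by
    intro a b hab
    have hab' : ix a ≠ ix (bar b) := by simpa using hab
    have e := congrFun (congrFun (hN a (bar b) hab') a) b
    have h1 : bar a ≠ b := fun e => hab (by rw [← e, ix_bar])
    simp only [nil, bar_bar, Matrix.mul_sub, Matrix.sub_mul, Matrix.sub_apply,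
      Matrix.mul_single_apply_same, Matrix.single_mul_apply_same,
      Matrix.mul_single_apply_of_ne (hbj := h1.symm),
      Matrix.single_mul_apply_of_ne (h := ne_of_ix hab'), mul_one, one_mul, sub_zero] at e
    exact e
  let o : I l := .inl ⟨0, by omega⟩
  have hall : ∀ a, mat g a a = mat g o o := by
    intro a
    obtain ⟨b, hb1, hb2⟩ := exists_ix_ne hl (ix a) (ix o)
    rw [hdiag a b hb1.symm, hdiag o b hb2.symm]
  have hmat : mat g = mat g o o • (1 : Matrix (I l) (I l) F) := by
    ext x y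
    rcases eq_or_ne x y with rfl | hxy
    · simp [hall x]
    · simp [hoff x y hxy, Matrix.one_apply_ne hxy]
  refine ⟨_, ?_, hmat⟩
  have e := isometry g (Pi.single o 1 + Pi.single (bar o) 1)
  rw [hmat, Matrix.smul_mulVec, Matrix.one_mulVec, smul_add, ← Pi.single_smul, ← Pi.single_smul,
    Q_pair, Q_pair, if_pos rfl, if_pos rfl] at e
  simpa using e

/-- The root element in `Ω`. -/
def Y (hl : 3 ≤ l) (a b : I l) (t : F) : Omega F (Q l F) := ⟨X a b t, X_mem_Omega hl a b t⟩

theorem closure_Y (hl : 3 ≤ l) :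
    Subgroup.closure {g : Omega F (Q l F) | ∃ a b t, ix a ≠ ix b ∧ g = Y hl a b t} = ⊤ := by
  refine Subgroup.map_injective (Omega F (Q l F)).subtype_injective ?_
  rw [MonoidHom.map_closure, ← MonoidHom.range_eq_map, Subgroup.range_subtype]
  refine (congrArg Subgroup.closure (Set.ext fun g => ?_)).trans (closure_X hl)
  constructor
  · rintro ⟨_, ⟨a, b, t, h, rfl⟩, rfl⟩; exact ⟨a, b, t, h, rfl⟩
  · rintro ⟨a, b, t, h, rfl⟩; exact ⟨_, ⟨a, b, t, h, rfl⟩, rfl⟩

/-- The centre of `Ω` consists of scalars `±1`. -/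
theorem mem_center_iff (hl : 3 ≤ l) (g : Omega F (Q l F)) :
    g ∈ Subgroup.center (Omega F (Q l F)) ↔
      ∃ c : F, c * c = 1 ∧ mat g.1 = c • (1 : Matrix (I l) (I l) F) := by
  constructor
  · intro hg
    exact scalar_of_commute hl g.1 fun a b _ =>
      (congrArg Subtype.val (Subgroup.mem_center_iff.1 hg (Y hl a b 1))).symm
  · rintro ⟨c, -, hc⟩
    refine Subgroup.mem_center_iff.2 fun k => Subtype.ext (mat_inj ?_)
    rw [Subgroup.coe_mul, Subgroup.coe_mul, mat_mul, mat_mul, hc, smul_one_mul]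
    simp

end Cfsg.Agent.DType
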